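import Mathlib

/-!
# Project QB (helper48, S2359), piece SYLCONJ (helper9)

An element of prime order `r` is conjugate into a subgroup `M` containing a Sylow `r`-subgroup.
-/

set_option autoImplicit false

namespace Cfsg.Agent.Lib.Helper48.QB

open scoped Pointwise

-- QB-SYLCONJ
theorem syl_conj {G : Type*} [Group G] [Finite G] (M : Subgroup G) (r : ℕ) (hr : r.Prime)
    (hfac : (Nat.card M).factorization r = (Nat.card G).factorization r)
    (y : G) (hy : orderOf y = r) : ∃ g : G, g * y * g⁻¹ ∈ M := by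
  have : Fact r.Prime := ⟨hr⟩
  have hpg : IsPGroup r (Subgroup.zpowers y) := by
    apply IsPGroup.of_card (n := 1)
    rw [Nat.card_zpowers, hy, pow_one]
  obtain ⟨P, hP⟩ := hpg.exists_le_sylow
  obtain ⟨Q⟩ : Nonempty (Sylow r M) := inferInstance
  have hQcard : Nat.card ((Q : Subgroup M).map M.subtype) =
      r ^ (Nat.card G).factorization r := by
    rw [Subgroup.card_map_of_injective (Subgroup.subtype_injective M), Sylow.card_eq_multiplicity,
      hfac]
  obtain ⟨g, hg⟩ := MulAction.exists_smul_eq G P (Sylow.ofCard _ hQcard)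
  refine ⟨g, ?_⟩
  have h1 : y ∈ (P : Subgroup G) := hP (Subgroup.mem_zpowers y)
  have h2 : MulAut.conj g • y ∈ MulAut.conj g • (P : Subgroup G) :=
    Subgroup.smul_mem_pointwise_smul y (MulAut.conj g) (P : Subgroup G) h1
  have h3 : ((g • P : Sylow r G) : Subgroup G) = MulAut.conj g • (P : Subgroup G) := by
    rw [Sylow.smul_def, Sylow.pointwise_smul_def]
  rw [← h3, hg, Sylow.coe_ofCard] at h2
  obtain ⟨m, -, hm2⟩ := Subgroup.mem_map.1 h2
  have h4 : g * y * g⁻¹ = (m : G) := hm2.symm
  rw [h4]
  exact m.2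

end Cfsg.Agent.Lib.Helper48.QB
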