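import Mathlib
import Cfsg.Agent.Lib.Helper81.AQDefs

/-!
# Project AQ (S3911), piece CARD1

If `L = L' M` with `M` normal, `L / M` abelian, `p ∣ |L : M|` and all `p`-subgroups cyclic, then
`L'` and `L` have the same `p`-part.
-/

set_option autoImplicit false

namespace Cfsg.Agent.Lib.Helper81.AQ

variable {G : Type*} [Group G]

/-- The order of an element of a subgroup divides the order of the subgroup. -/
theorem card1_orderOf_dvd {H : Type*} [Group H] (N : Subgroup H) {x : H} (hx : x ∈ N) :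
    orderOf x ∣ Nat.card N := by
  rw [← Subgroup.orderOf_mk x hx]
  exact orderOf_dvd_natCard _

/-- Bezout: if `u ^ (p ^ k) = 1` and `p ∤ j`, then `u` is a power of `u ^ j`. -/
theorem card1_mem_zpowers_of_coprime {H : Type*} [Group H] (u : H) (p k : ℕ) (hp : p.Prime)
    (hu : u ^ (p ^ k) = 1) (j : ℤ) (hj : ¬ (p : ℤ) ∣ j) : u ∈ Subgroup.zpowers (u ^ j) := by
  have hp' : Prime (p : ℤ) := Nat.prime_iff_prime_int.mp hp
  have hc : IsCoprime j ((p : ℤ) ^ k) := ((Prime.coprime_iff_not_dvd hp').2 hj).symm.pow_right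
  obtain ⟨a, b, hab⟩ := hc
  refine ⟨a, ?_⟩
  show (u ^ j) ^ a = u
  have h1 : u ^ ((p : ℤ) ^ k) = 1 := by
    have h2 : ((p : ℤ) ^ k) = ((p ^ k : ℕ) : ℤ) := by push_cast; rfl
    rw [h2, zpow_natCast, hu]
  have h3 : u = u ^ (a * j + b * (p : ℤ) ^ k) := by rw [hab, zpow_one]
  rw [zpow_add, zpow_mul' u b, h1, one_zpow, mul_one, mul_comm a j, zpow_mul] at h3
  exact h3.symm

/-- Core: in a finite group `H = K N` with `N` normal, `H / N` abelian, `p ∣ |H : N|` and all
`p`-subgroups cyclic, the full `p`-part of `|H|` divides `|K|`. -/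
theorem card1_core {H : Type*} [Group H] [Finite H] (N K : Subgroup H) [N.Normal]
    (hsup : K ⊔ N = ⊤) (hab : ∀ x y : H, x * y * x⁻¹ * y⁻¹ ∈ N)
    (p : ℕ) [Fact p.Prime] (hpd : p ∣ N.index)
    (hcyc : ∀ Q : Subgroup H, IsPGroup p Q → IsCyclic Q) :
    p ^ (Nat.card H).factorization p ∣ Nat.card K := by
  have hp : p.Prime := Fact.out
  obtain ⟨P⟩ : Nonempty (Sylow p H) := inferInstance
  have hPcard : Nat.card P = p ^ (Nat.card H).factorization p := P.card_eq_multiplicity
  have hPcyc : IsCyclic (P : Subgroup H) := hcyc P P.2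
  obtain ⟨g, hg⟩ := IsCyclic.exists_generator (α := (P : Subgroup H))
  have hgo : orderOf (g : H) = p ^ (Nat.card H).factorization p := by
    rw [Subgroup.orderOf_coe, orderOf_eq_card_of_forall_mem_zpowers hg]
    exact hPcard
  have hgpow : (g : H) ^ (p ^ (Nat.card H).factorization p) = 1 := by
    rw [← hgo]; exact pow_orderOf_eq_one _
  -- the generator is not in `N`
  have huN : (g : H) ∉ N := by
    intro hmem
    have h1 : p ^ (Nat.card H).factorization p ∣ Nat.card N := hgo ▸ card1_orderOf_dvd N hmem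
    have h2 : Nat.card N * N.index = Nat.card H := N.card_mul_index
    have h3 : p ^ ((Nat.card H).factorization p + 1) ∣ Nat.card H := by
      have h4 := Nat.mul_dvd_mul h1 hpd
      rw [h2] at h4
      rw [pow_succ]
      exact h4
    exact Nat.pow_succ_factorization_not_dvd Nat.card_pos.ne' hp h3
  -- decomposition of the generator
  have hmemtop : (g : H) ∈ ((K ⊔ N : Subgroup H) : Set H) := by
    rw [hsup]; exact Set.mem_univ _
  rw [Subgroup.mul_normal, Set.mem_mul] at hmemtop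
  obtain ⟨l', hl', m, hm, hlm⟩ := hmemtop
  have hn0 : orderOf l' ≠ 0 := (orderOf_pos l').ne'
  obtain ⟨a, r, hr, hnr⟩ := Nat.exists_eq_pow_mul_and_not_dvd hn0 p hp.ne_one
  have hyK : l' ^ r ∈ K := K.pow_mem hl' r
  have hypow : (l' ^ r) ^ (p ^ a) = 1 := by
    rw [← pow_mul, mul_comm, ← hnr, pow_orderOf_eq_one]
  have hyP : IsPGroup p (Subgroup.zpowers (l' ^ r)) := by
    obtain ⟨c, -, hc⟩ := (Nat.dvd_prime_pow hp).1 (orderOf_dvd_of_pow_eq_one hypow)
    exact IsPGroup.of_card (n := c) (by rw [Nat.card_zpowers, hc])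
  obtain ⟨Q, hQ⟩ := hyP.exists_le_sylow
  obtain ⟨h, hh⟩ := MulAction.exists_smul_eq H P Q
  have hyQ : l' ^ r ∈ (Q : Subgroup H) := hQ (Subgroup.mem_zpowers _)
  rw [← hh, Sylow.coe_subgroup_smul, Subgroup.mem_smul_pointwise_iff_exists] at hyQ
  obtain ⟨s, hsP, hsy⟩ := hyQ
  rw [MulAut.smul_def, MulAut.conj_apply] at hsy
  obtain ⟨j, hj⟩ := hg ⟨s, hsP⟩
  have hsj : (g : H) ^ j = s := by
    have := congrArg Subtype.val hj
    simpa using this
  -- pass to the quotient
  have hker : ∀ x : H, QuotientGroup.mk' N x = 1 ↔ x ∈ N := by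
    intro x
    rw [← MonoidHom.mem_ker, QuotientGroup.ker_mk']
  have hkey : (g : H) ^ (j - (r : ℤ)) ∈ N := by
    rw [← hker]
    have e1 : QuotientGroup.mk' N l' = QuotientGroup.mk' N (g : H) := by
      rw [← hlm, map_mul, (hker m).2 hm, mul_one]
    have e2 : QuotientGroup.mk' N (l' ^ r) = QuotientGroup.mk' N (g : H) ^ (r : ℤ) := by
      rw [map_pow, e1, zpow_natCast]
    have e3 : QuotientGroup.mk' N (l' ^ r) = QuotientGroup.mk' N s := by
      have h5 := (hker _).2 (hab h s)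
      rw [map_mul, map_inv, mul_inv_eq_one] at h5
      rw [← hsy]; exact h5
    have e4 : QuotientGroup.mk' N s = QuotientGroup.mk' N (g : H) ^ j := by
      rw [← hsj, map_zpow]
    rw [map_zpow, zpow_sub, ← e4, ← e3, e2, mul_inv_cancel]
  have hdvd : (p : ℤ) ∣ j - (r : ℤ) := by
    by_contra hnd
    have h6 := card1_mem_zpowers_of_coprime (g : H) p _ hp hgpow _ hnd
    exact huN ((Subgroup.zpowers_le.2 hkey) h6)
  have hj' : ¬ (p : ℤ) ∣ j := by
    intro hpj
    have h7 : (p : ℤ) ∣ (r : ℤ) := by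
      have h8 := dvd_sub hpj hdvd
      simpa using h8
    exact hr (Int.natCast_dvd_natCast.1 h7)
  have hgs : (g : H) ∈ Subgroup.zpowers s := by
    rw [← hsj]; exact card1_mem_zpowers_of_coprime (g : H) p _ hp hgpow j hj'
  have h9 : p ^ (Nat.card H).factorization p ∣ orderOf s := hgo ▸ orderOf_dvd_of_mem_zpowers hgs
  have h10 : orderOf (l' ^ r) = orderOf s := by
    rw [← hsy, ← MulAut.conj_apply]; exact MulEquiv.orderOf_eq _ _
  exact h9.trans (h10 ▸ card1_orderOf_dvd K hyK)

-- piece CARD1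
theorem val_eq_of_cyclic [Finite G] (M : Subgroup G) [M.Normal] (L L' : Subgroup G)
    (hML : M ≤ L) (hab : AbMod L M) (hL' : L' ≤ L) (hsup : L' ⊔ M = L) (p : ℕ) [Fact p.Prime]
    (hpd : p ∣ M.relIndex L) (hcyc : ∀ Q : Subgroup G, IsPGroup p Q → IsCyclic Q) :
    (Nat.card L').factorization p = (Nat.card L).factorization p := by
  have hp : p.Prime := Fact.out
  have hsup' : L'.subgroupOf L ⊔ M.subgroupOf L = ⊤ := by
    rw [← Subgroup.subgroupOf_sup hL' hML, hsup, Subgroup.subgroupOf_self]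
  have hab' : ∀ x y : L, x * y * x⁻¹ * y⁻¹ ∈ M.subgroupOf L := by
    intro x y
    rw [Subgroup.mem_subgroupOf]
    exact hab x x.2 y y.2
  have hcyc' : ∀ Q : Subgroup L, IsPGroup p Q → IsCyclic Q := by
    intro Q hQ
    have hQc : IsCyclic (Q.map L.subtype) := hcyc (Q.map L.subtype) (hQ.map _)
    exact isCyclic_of_injective
      ((Subgroup.equivMapOfInjective Q L.subtype Subtype.val_injective).toMonoidHom)
      (MulEquiv.injective _)
  have hdiv := card1_core (M.subgroupOf L) (L'.subgroupOf L) hsup' hab' p hpd hcyc'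
  rw [Nat.card_congr (Subgroup.subgroupOfEquivOfLe hL').toEquiv] at hdiv
  apply le_antisymm
  · exact (Nat.factorization_le_iff_dvd Nat.card_pos.ne' Nat.card_pos.ne').2
      (Subgroup.card_dvd_of_le hL') p
  · exact (hp.pow_dvd_iff_le_factorization Nat.card_pos.ne').1 hdiv

end Cfsg.Agent.Lib.Helper81.AQ
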