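import Mathlib
import Cfsg.Prelude.Def_BaumannBlocks

/-!
# Project JD (helper78, S2984), piece SL2T

The commutator subgroup of `SL(2, F)` is transitive on the nonzero vectors of `F²`, for every
finite field `F`.  For `|F| ≥ 4` the group is perfect (Mathlib) and `SL(2, F)` is transitive; for
`|F| = 2, 3` the vectors are reached from `(1, 0)` by the commutator `c = ⁅u, l⁆` of the two
elementary unipotent matrices and its conjugate `j = u c u⁻¹`.
-/

set_option autoImplicit false

namespace Cfsg.Agent.Lib.Helper9.Jd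

open scoped commutatorElement

variable {F : Type} [Field F]

/-- reachability of a vector from `(1, 0)` by the commutator subgroup -/
def sl2t_Reach (F : Type) [Field F] (v : Fin 2 → F) : Prop :=
  ∃ r ∈ commutator (Matrix.SpecialLinearGroup (Fin 2) F),
    (r : Matrix (Fin 2) (Fin 2) F).mulVec ![1, 0] = v

theorem sl2t_of_reach (v v' : Fin 2 → F) (h : sl2t_Reach F v) (h' : sl2t_Reach F v') :
    ∃ r ∈ commutator (Matrix.SpecialLinearGroup (Fin 2) F),
      (r : Matrix (Fin 2) (Fin 2) F).mulVec v = v' := by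
  obtain ⟨r, hr, e⟩ := h
  obtain ⟨r', hr', e'⟩ := h'
  refine ⟨r' * r⁻¹, mul_mem hr' (inv_mem hr), ?_⟩
  rw [← e, Matrix.mulVec_mulVec, ← Matrix.SpecialLinearGroup.coe_mul, inv_mul_cancel_right, e']

omit [Field F] in
theorem sl2t_eta (v : Fin 2 → F) : v = ![v 0, v 1] := by
  funext i
  fin_cases i <;> rfl

theorem sl2t_reach_congr {x y x' y' : F} (h : sl2t_Reach F ![x, y]) (hx : x = x') (hy : y = y') :
    sl2t_Reach F ![x', y'] := by
  subst hx hy
  exact h

theorem sl2t_reach_e0 : sl2t_Reach F ![1, 0] :=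
  ⟨1, one_mem _, by simp⟩

/-- `SL(2, F)` is transitive on nonzero vectors -/
theorem sl2t_reach_top (hN : commutator (Matrix.SpecialLinearGroup (Fin 2) F) = ⊤)
    (v : Fin 2 → F) (hv : v ≠ 0) : sl2t_Reach F v := by
  by_cases h0 : v 0 = 0
  · have h1 : v 1 ≠ 0 := by
      intro h1
      apply hv
      funext i
      fin_cases i
      · exact h0
      · exact h1
    refine ⟨⟨!![0, -(v 1)⁻¹; v 1, 0], by simp [Matrix.det_fin_two, h1]⟩, ?_, ?_⟩
    · rw [hN]
      exact Subgroup.mem_top _
    · funext i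
      fin_cases i
      · simp [Matrix.mulVec, dotProduct, Fin.sum_univ_two, h0]
      · simp [Matrix.mulVec, dotProduct, Fin.sum_univ_two]
  · refine ⟨⟨!![v 0, 0; v 1, (v 0)⁻¹], by simp [Matrix.det_fin_two, h0]⟩, ?_, ?_⟩
    · rw [hN]
      exact Subgroup.mem_top _
    · funext i
      fin_cases i
      · simp [Matrix.mulVec, dotProduct, Fin.sum_univ_two]
      · simp [Matrix.mulVec, dotProduct, Fin.sum_univ_two]

/-- the upper unipotent element -/
def sl2t_u : Matrix.SpecialLinearGroup (Fin 2) F :=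
  ⟨!![1, 1; 0, 1], by simp [Matrix.det_fin_two]⟩

/-- the lower unipotent element -/
def sl2t_l : Matrix.SpecialLinearGroup (Fin 2) F :=
  ⟨!![1, 0; 1, 1], by simp [Matrix.det_fin_two]⟩

/-- the commutator of the two unipotent elements -/
def sl2t_c : Matrix.SpecialLinearGroup (Fin 2) F :=
  ⟨!![3, -1; 1, 0], by simp [Matrix.det_fin_two]⟩

/-- the conjugate of the commutator by the upper unipotent element -/
def sl2t_j : Matrix.SpecialLinearGroup (Fin 2) F :=
  ⟨!![4, -5; 1, -1], by
    rw [Matrix.det_fin_two_of]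
    ring⟩

theorem sl2t_c_eq : (sl2t_c : Matrix.SpecialLinearGroup (Fin 2) F) =
    ⁅(sl2t_u : Matrix.SpecialLinearGroup (Fin 2) F), sl2t_l⁆ := by
  rw [commutatorElement_def, eq_mul_inv_iff_mul_eq, eq_mul_inv_iff_mul_eq]
  apply Subtype.ext
  show (!![3, -1; 1, 0] * !![1, 0; 1, 1] * !![1, 1; 0, 1] : Matrix (Fin 2) (Fin 2) F) =
    !![1, 1; 0, 1] * !![1, 0; 1, 1]
  rw [Matrix.mul_fin_two, Matrix.mul_fin_two, Matrix.mul_fin_two]
  congr 1
  ext i j
  fin_cases i <;> fin_cases j <;> simp <;> ring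

theorem sl2t_j_eq : (sl2t_j : Matrix.SpecialLinearGroup (Fin 2) F) =
    sl2t_u * sl2t_c * sl2t_u⁻¹ := by
  rw [eq_mul_inv_iff_mul_eq]
  apply Subtype.ext
  show (!![4, -5; 1, -1] * !![1, 1; 0, 1] : Matrix (Fin 2) (Fin 2) F) =
    !![1, 1; 0, 1] * !![3, -1; 1, 0]
  rw [Matrix.mul_fin_two, Matrix.mul_fin_two]
  congr 1
  ext i j
  fin_cases i <;> fin_cases j <;> simp <;> ring

theorem sl2t_c_mem :
    (sl2t_c : Matrix.SpecialLinearGroup (Fin 2) F) ∈
      commutator (Matrix.SpecialLinearGroup (Fin 2) F) := by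
  rw [sl2t_c_eq, commutator_def]
  exact Subgroup.commutator_mem_commutator (Subgroup.mem_top _) (Subgroup.mem_top _)

theorem sl2t_j_mem :
    (sl2t_j : Matrix.SpecialLinearGroup (Fin 2) F) ∈
      commutator (Matrix.SpecialLinearGroup (Fin 2) F) := by
  rw [sl2t_j_eq]
  exact Subgroup.Normal.conj_mem inferInstance _ sl2t_c_mem _

theorem sl2t_reach_c (x y : F) (h : sl2t_Reach F ![x, y]) : sl2t_Reach F ![3 * x - y, x] := by
  obtain ⟨r, hr, e⟩ := h
  refine ⟨sl2t_c * r, mul_mem sl2t_c_mem hr, ?_⟩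
  rw [Matrix.SpecialLinearGroup.coe_mul, ← Matrix.mulVec_mulVec, e]
  funext i
  fin_cases i
  · simp [sl2t_c, Matrix.mulVec, dotProduct, Fin.sum_univ_two]
    ring
  · simp [sl2t_c, Matrix.mulVec, dotProduct, Fin.sum_univ_two]

theorem sl2t_reach_j (x y : F) (h : sl2t_Reach F ![x, y]) :
    sl2t_Reach F ![4 * x - 5 * y, x - y] := by
  obtain ⟨r, hr, e⟩ := h
  refine ⟨sl2t_j * r, mul_mem sl2t_j_mem hr, ?_⟩
  rw [Matrix.SpecialLinearGroup.coe_mul, ← Matrix.mulVec_mulVec, e]
  funext i
  fin_cases i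
  · simp [sl2t_j, Matrix.mulVec, dotProduct, Fin.sum_univ_two]
    ring
  · simp [sl2t_j, Matrix.mulVec, dotProduct, Fin.sum_univ_two]
    ring

theorem sl2t_card_zero [Fintype F] : ((Fintype.card F : ℕ) : F) = 0 :=
  FiniteField.cast_card_eq_zero F

/-- the field with two elements -/
theorem sl2t_reach_two [Fintype F] (hc : Fintype.card F = 2) (v : Fin 2 → F) (hv : v ≠ 0) :
    sl2t_Reach F v := by
  classical
  have h2 : (2 : F) = 0 := by
    have h := sl2t_card_zero (F := F)
    rw [hc] at h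
    exact_mod_cast h
  have hall : ∀ x : F, x = 0 ∨ x = 1 := by
    intro x
    have hu : ({0, 1} : Finset F) = Finset.univ :=
      Finset.eq_univ_of_card _ (by rw [Finset.card_pair zero_ne_one, hc])
    have hx : x ∈ ({0, 1} : Finset F) := by
      rw [hu]
      exact Finset.mem_univ x
    simpa using hx
  have r0 : sl2t_Reach F ![1, 0] := sl2t_reach_e0
  have r1 : sl2t_Reach F ![1, 1] :=
    sl2t_reach_congr (sl2t_reach_c 1 0 r0) (by linear_combination h2) rfl
  have r2 : sl2t_Reach F ![0, 1] :=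
    sl2t_reach_congr (sl2t_reach_c 1 1 r1) (by linear_combination h2) rfl
  rw [sl2t_eta v]
  rcases hall (v 0) with a | a <;> rcases hall (v 1) with b | b
  · exfalso
    apply hv
    rw [sl2t_eta v, a, b]
    funext i
    fin_cases i <;> rfl
  · rw [a, b]
    exact r2
  · rw [a, b]
    exact r0
  · rw [a, b]
    exact r1

/-- the field with three elements -/
theorem sl2t_reach_three [Fintype F] (hc : Fintype.card F = 3) (v : Fin 2 → F) (hv : v ≠ 0) :
    sl2t_Reach F v := by
  classical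
  have h3 : (3 : F) = 0 := by
    have h := sl2t_card_zero (F := F)
    rw [hc] at h
    exact_mod_cast h
  have h0m : (0 : F) ≠ -1 := by
    intro h
    have h' : (1 : F) = 0 := by linear_combination h
    exact one_ne_zero h'
  have h1m : (1 : F) ≠ -1 := by
    intro h
    have h' : (1 : F) = 0 := by linear_combination h3 - h
    exact one_ne_zero h'
  have hall : ∀ x : F, x = 0 ∨ x = 1 ∨ x = -1 := by
    intro x
    have hcard : ({0, 1, -1} : Finset F).card = 3 := by
      rw [Finset.card_insert_of_notMem (by simp [h0m]), Finset.card_pair h1m]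
    have hu : ({0, 1, -1} : Finset F) = Finset.univ :=
      Finset.eq_univ_of_card _ (by rw [hcard, hc])
    have hx : x ∈ ({0, 1, -1} : Finset F) := by
      rw [hu]
      exact Finset.mem_univ x
    simpa using hx
  have r0 : sl2t_Reach F ![1, 0] := sl2t_reach_e0
  have r1 : sl2t_Reach F ![0, 1] :=
    sl2t_reach_congr (sl2t_reach_c 1 0 r0) (by linear_combination h3) rfl
  have r2 : sl2t_Reach F ![-1, 0] :=
    sl2t_reach_congr (sl2t_reach_c 0 1 r1) (by ring) rfl
  have r3 : sl2t_Reach F ![0, -1] :=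
    sl2t_reach_congr (sl2t_reach_c (-1) 0 r2) (by linear_combination -h3) rfl
  have r4 : sl2t_Reach F ![1, 1] :=
    sl2t_reach_congr (sl2t_reach_j 1 0 r0) (by linear_combination h3) (by ring)
  have r5 : sl2t_Reach F ![-1, 1] :=
    sl2t_reach_congr (sl2t_reach_c 1 1 r4) (by linear_combination h3) rfl
  have r6 : sl2t_Reach F ![-1, -1] :=
    sl2t_reach_congr (sl2t_reach_c (-1) 1 r5) (by linear_combination -h3) rfl
  have r7 : sl2t_Reach F ![1, -1] :=
    sl2t_reach_congr (sl2t_reach_c (-1) (-1) r6) (by linear_combination -h3) rfl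
  rw [sl2t_eta v]
  rcases hall (v 0) with a | a | a <;> rcases hall (v 1) with b | b | b
  · exfalso
    apply hv
    rw [sl2t_eta v, a, b]
    funext i
    fin_cases i <;> rfl
  · rw [a, b]
    exact r1
  · rw [a, b]
    exact r3
  · rw [a, b]
    exact r0
  · rw [a, b]
    exact r4
  · rw [a, b]
    exact r7
  · rw [a, b]
    exact r2
  · rw [a, b]
    exact r5
  · rw [a, b]
    exact r6

theorem sl2t_exists_sq [Fintype F] (h : 4 ≤ Fintype.card F) : ∃ a : F, a ≠ 0 ∧ a ^ 2 ≠ 1 := by
  classical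
  by_contra hcon
  have hsub : (Finset.univ : Finset F) ⊆ {0, 1, -1} := by
    intro a _
    by_cases ha : a = 0
    · simp [ha]
    · have h1 : a ^ 2 = 1 := by
        by_contra h1
        exact hcon ⟨a, ha, h1⟩
      have h2 : (a - 1) * (a + 1) = 0 := by linear_combination h1
      rcases mul_eq_zero.mp h2 with h | h
      · simp [sub_eq_zero.mp h]
      · simp [eq_neg_of_add_eq_zero_left h]
  have h1 := Finset.card_le_card hsub
  have h3 : ({0, 1, -1} : Finset F).card ≤ 3 := Finset.card_le_three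
  rw [Finset.card_univ] at h1
  omega

theorem sl2t_reach (F : Type) [Field F] [Fintype F] (v : Fin 2 → F) (hv : v ≠ 0) :
    sl2t_Reach F v := by
  by_cases h4 : 4 ≤ Fintype.card F
  · obtain ⟨a, ha, hasq⟩ := sl2t_exists_sq h4
    exact sl2t_reach_top (Matrix.SL2.commutator_eq_top ha hasq) v hv
  · have h1 : 1 < Fintype.card F := Fintype.one_lt_card
    have h23 : Fintype.card F = 2 ∨ Fintype.card F = 3 := by omega
    rcases h23 with h | h
    · exact sl2t_reach_two h v hv
    · exact sl2t_reach_three h v hv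

theorem sl2c_transitive (F : Type) [Field F] [Fintype F] (v v' : Fin 2 → F) (hv : v ≠ 0)
    (hv' : v' ≠ 0) :
    ∃ r ∈ commutator (Matrix.SpecialLinearGroup (Fin 2) F),
      (r : Matrix (Fin 2) (Fin 2) F).mulVec v = v' :=
  sl2t_of_reach v v' (sl2t_reach F v hv) (sl2t_reach F v' hv')

end Cfsg.Agent.Lib.Helper9.Jd
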